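import Cfsg.Agent.PSolv.Basic
import Cfsg.Agent.OddLocal.Coprime
import Cfsg.Agent.Lib.MinimalNormal
import Mathlib.GroupTheory.SchurZassenhaus

/-!
A `p`-soluble group in which every maximal subgroup has a normal `p`-complement or prime index
has `p`-length at most two (and is an extension ending with a `p`-group when `p = 2`).
-/

set_option autoImplicit false
set_option linter.style.haveILetI false
set_option linter.unusedSectionVars false

open Cfsg Subgroup

namespace Cfsg.Agent.PSolv.MaxIndex

universe u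

/-- The hypothesis on maximal subgroups. -/
def Good (p : ℕ) (G : Type u) [Group G] : Prop :=
  ∀ M : Subgroup G, IsCoatom M →
    (∃ K : Subgroup ↥M, K.Normal ∧ ¬ p ∣ Nat.card K ∧ ∃ k : ℕ, K.index = p ^ k) ∨ (M.index).Prime

variable {G : Type u} [Group G] [Finite G] {p : ℕ} [Fact p.Prime]

theorem good_quotient (h : Good p G) (N : Subgroup G) [N.Normal] : Good p (G ⧸ N) := by
  intro M hM
  set f := QuotientGroup.mk' N
  have hf : Function.Surjective f := QuotientGroup.mk'_surjective N
  have hM' : IsCoatom (M.comap f) := by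
    refine ⟨fun ht => hM.1 ?_, fun X hX => ?_⟩
    · rw [← Subgroup.map_comap_eq_self_of_surjective hf M, ht,
        Subgroup.map_top_of_surjective f hf]
    · have hker : f.ker ≤ X := (Subgroup.ker_le_comap f M).trans hX.le
      have hXe : (X.map f).comap f = X := Subgroup.comap_map_eq_self hker
      have hlt : M < X.map f := by
        refine lt_of_le_of_ne ?_ fun he => hX.ne (by rw [he, hXe])
        rw [← Subgroup.map_comap_eq_self_of_surjective hf M]
        exact Subgroup.map_mono hX.le
      rw [← hXe, hM.2 _ hlt, Subgroup.comap_top]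
  rcases h _ hM' with ⟨K, hKn, hKp, k, hk⟩ | hp
  · left
    let g : (M.comap f) →* M := (f.comp (M.comap f).subtype).codRestrict M fun x => x.2
    have hg : Function.Surjective g := fun y => by
      obtain ⟨x, hx⟩ := hf y.1
      exact ⟨⟨x, show f x ∈ M by rw [hx]; exact y.2⟩, Subtype.ext hx⟩
    refine ⟨K.map g, hKn.map g hg, fun hd => hKp (hd.trans (Subgroup.card_map_dvd K g)), ?_⟩
    have hd : (K.map g).index ∣ p ^ k := hk ▸ Subgroup.index_map_dvd K hg
    obtain ⟨i, -, hi⟩ := (Nat.dvd_prime_pow Fact.out).1 hd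
    exact ⟨i, hi⟩
  · right
    rwa [Subgroup.index_comap_of_surjective M hf] at hp

omit [Finite G] in
/-- The step of the product embedding. -/
theorem relIndex_inf_dvd {A₁ B₁ A₂ B₂ : Subgroup G} [A₁.Normal] [A₂.Normal]
    (h1 : A₁ ≤ B₁) (h2 : A₂ ≤ B₂) :
    (A₁ ⊓ A₂).relIndex (B₁ ⊓ B₂) ∣ A₁.relIndex B₁ * A₂.relIndex B₂ := by
  have hK : A₁ ⊓ A₂ = A₂ ⊓ (A₁ ⊓ (B₁ ⊓ B₂)) := by
    apply le_antisymm
    · exact le_inf inf_le_right (le_inf inf_le_left (inf_le_inf h1 h2))
    · exact le_inf (inf_le_right.trans inf_le_left) inf_le_left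
  rw [hK, ← Subgroup.relIndex_mul_relIndex (A₂ ⊓ (A₁ ⊓ (B₁ ⊓ B₂))) (A₁ ⊓ (B₁ ⊓ B₂)) (B₁ ⊓ B₂)
    inf_le_right inf_le_right, Subgroup.inf_relIndex_right, Subgroup.inf_relIndex_right, mul_comm]
  exact mul_dvd_mul (relIndex_dvd_relIndex_right inf_le_left)
    (relIndex_dvd_relIndex_right (inf_le_right.trans inf_le_right))

theorem relIndex_comap_mk (N : Subgroup G) [N.Normal] (A B : Subgroup (G ⧸ N)) :
    (A.comap (QuotientGroup.mk' N)).relIndex (B.comap (QuotientGroup.mk' N)) = A.relIndex B := by
  rw [Subgroup.relIndex_comap,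
    Subgroup.map_comap_eq_self_of_surjective (QuotientGroup.mk'_surjective N)]

theorem comap_inf_useries_le {N₁ N₂ : Subgroup G} [N₁.Normal] [N₂.Normal] (hN : N₁ ⊓ N₂ = ⊥) :
    ∀ n : ℕ, (useries p (G ⧸ N₁) n).comap (QuotientGroup.mk' N₁) ⊓
      (useries p (G ⧸ N₂) n).comap (QuotientGroup.mk' N₂) ≤ useries p G n
  | 0 => by simp [useries_zero, hN]
  | n + 1 => by
    have := upperPSeries_normal p (G ⧸ N₁) (n + 1)
    have := upperPSeries_normal p (G ⧸ N₂) (n + 1)
    have := upperPSeries_normal p (G ⧸ N₁) n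
    have := upperPSeries_normal p (G ⧸ N₂) n
    set X := (useries p (G ⧸ N₁) (n + 1)).comap (QuotientGroup.mk' N₁) ⊓
      (useries p (G ⧸ N₂) (n + 1)).comap (QuotientGroup.mk' N₂)
    have hX : X.Normal := Subgroup.normal_inf_normal _ _
    have hd : (useries p G n).relIndex X ∣ (useries p (G ⧸ N₁) n).relIndex (useries p (G ⧸ N₁) (n + 1))
        * (useries p (G ⧸ N₂) n).relIndex (useries p (G ⧸ N₂) (n + 1)) := by
      refine (Subgroup.relIndex_dvd_of_le_left _ (comap_inf_useries_le hN n)).trans ?_
      refine (relIndex_inf_dvd (Subgroup.comap_mono (useries_le_succ n))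
        (Subgroup.comap_mono (useries_le_succ n))).trans ?_
      rw [relIndex_comap_mk, relIndex_comap_mk]
    by_cases hn : Even n
    · exact le_useries_succ_even hn hX (Nat.Coprime.coprime_dvd_left hd
        ((useries_relIndex_even hn).mul_left (useries_relIndex_even hn)))
    · obtain ⟨a, ha⟩ := useries_relIndex_odd (p := p) (G := G ⧸ N₁) hn
      obtain ⟨b, hb⟩ := useries_relIndex_odd (p := p) (G := G ⧸ N₂) hn
      rw [ha, hb, ← pow_add] at hd
      obtain ⟨i, _, hi⟩ := (Nat.dvd_prime_pow Fact.out).1 hd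
      exact le_useries_succ_odd hn hX hi

theorem comap_useries_le_of_coprime {N : Subgroup G} [N.Normal] (hN : (Nat.card N).Coprime p) :
    ∀ n : ℕ, (useries p (G ⧸ N) (n + 1)).comap (QuotientGroup.mk' N) ≤ useries p G (n + 1)
  | 0 => by
    refine le_useries_succ_even ⟨0, rfl⟩ ((upperPSeries_normal p (G ⧸ N) 1).comap _) ?_
    rw [useries_zero, Subgroup.relIndex_bot_left, card_comap_mk]
    refine hN.mul_left ?_
    have h := useries_relIndex_even (p := p) (G := G ⧸ N) (n := 0) ⟨0, rfl⟩
    rwa [useries_zero, Subgroup.relIndex_bot_left] at h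
  | n + 1 => by
    have := upperPSeries_normal p (G ⧸ N) (n + 2)
    have hX := (upperPSeries_normal p (G ⧸ N) (n + 2)).comap (QuotientGroup.mk' N)
    have hd : (useries p G (n + 1)).relIndex
        ((useries p (G ⧸ N) (n + 2)).comap (QuotientGroup.mk' N)) ∣
        (useries p (G ⧸ N) (n + 1)).relIndex (useries p (G ⧸ N) (n + 2)) := by
      refine (Subgroup.relIndex_dvd_of_le_left _ (comap_useries_le_of_coprime hN n)).trans ?_
      rw [relIndex_comap_mk]
    by_cases hn : Even (n + 1)
    · exact le_useries_succ_even hn hX (Nat.Coprime.coprime_dvd_left hd (useries_relIndex_even hn))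
    · obtain ⟨a, ha⟩ := useries_relIndex_odd (p := p) (G := G ⧸ N) hn
      rw [ha] at hd
      obtain ⟨i, _, hi⟩ := (Nat.dvd_prime_pow Fact.out).1 hd
      exact le_useries_succ_odd hn hX hi

/-- A chain of length four with the required index conditions forces the series to reach the
top. -/
theorem eq_top_of_chain {B C : Subgroup G} [B.Normal] [C.Normal] (hBC : B ≤ C)
    (hB : ∃ k : ℕ, Nat.card B = p ^ k) (hC : (B.relIndex C).Coprime p)
    (hG : ∃ k : ℕ, C.index = p ^ k) : useries p G 4 = ⊤ := by
  have h2 : B ≤ useries p G 2 := by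
    obtain ⟨k, hk⟩ := hB
    obtain ⟨i, -, hi⟩ := (Nat.dvd_prime_pow Fact.out).1 (show (useries p G 1).relIndex B ∣ p ^ k from
      hk ▸ ((useries p G 1).subgroupOf B).index_dvd_card)
    exact le_useries_succ_odd (n := 1) (by decide) inferInstance hi
  have h3 : C ≤ useries p G 3 := le_useries_succ_even (n := 2) (by decide) inferInstance
    (Nat.Coprime.coprime_dvd_left (Subgroup.relIndex_dvd_of_le_left _ h2) hC)
  obtain ⟨k, hk⟩ := hG
  obtain ⟨i, -, hi⟩ := (Nat.dvd_prime_pow Fact.out).1 (show (useries p G 3).relIndex ⊤ ∣ p ^ k by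
    rw [Subgroup.relIndex_top_right, ← hk]; exact Subgroup.index_dvd_of_le h3)
  exact top_le_iff.1 (le_useries_succ_odd (n := 3) (by decide) inferInstance hi)

omit [Finite G] [Fact p.Prime] in
theorem useries_five_eq_top_of_four (h : useries p G 4 = ⊤) : useries p G 5 = ⊤ :=
  top_le_iff.1 (h ▸ useries_le_succ 4)

theorem useries_eq_top_aux : ∀ n : ℕ, ∀ {G : Type u} [Group G] [Finite G], Nat.card G = n →
    IsPSolvable p G → Good p G → useries p G 5 = ⊤ ∧ (p = 2 → useries p G 4 = ⊤) := by
  intro n
  induction n using Nat.strong_induction_on with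
  | _ n ih =>
  intro G _ _ hn hG hgood
  have hp : p.Prime := Fact.out
  rcases subsingleton_or_nontrivial G with hs | hs
  · have h4 : useries p G 4 = ⊤ := Subsingleton.elim _ _
    exact ⟨useries_five_eq_top_of_four h4, fun _ => h4⟩
  have hlt : ∀ (N : Subgroup G) [N.Normal], N ≠ ⊥ →
      useries p (G ⧸ N) 5 = ⊤ ∧ (p = 2 → useries p (G ⧸ N) 4 = ⊤) := fun N _ hN1 => by
    refine ih (Nat.card (G ⧸ N)) ?_ rfl (isPSolvable_quotient hG N) (good_quotient hgood N)
    rw [← hn, ← Subgroup.card_mul_index N, ← Subgroup.index_eq_card]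
    exact lt_mul_of_one_lt_left (Nat.pos_of_ne_zero Subgroup.index_ne_zero_of_finite)
      (Subgroup.one_lt_card_iff_ne_bot N |>.2 hN1)
  by_cases hA : pPrimeCore p G = ⊥
  swap
  · obtain ⟨h5, h4⟩ := hlt _ hA
    refine ⟨top_le_iff.1 ?_, fun h2 => top_le_iff.1 ?_⟩
    · refine le_trans ?_ (comap_useries_le_of_coprime (coprime_card_pPrimeCore p G) 4)
      rw [h5, Subgroup.comap_top]
    · refine le_trans ?_ (comap_useries_le_of_coprime (coprime_card_pPrimeCore p G) 3)
      rw [h4 h2, Subgroup.comap_top]
  obtain ⟨N, hNn, hN1, hmin⟩ := MinNormal.exists_minimal_normal (G := G)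
  haveI := hNn
  by_cases huniq : ∃ N₂ : Subgroup G, N₂.Normal ∧ N₂ ≠ ⊥ ∧ N ⊓ N₂ = ⊥
  · obtain ⟨N₂, hN₂n, hN₂1, hinf⟩ := huniq
    haveI := hN₂n
    obtain ⟨h5, h4⟩ := hlt N hN1
    obtain ⟨h5', h4'⟩ := hlt N₂ hN₂1
    refine ⟨top_le_iff.1 ?_, fun h2 => top_le_iff.1 ?_⟩
    · refine le_trans ?_ (comap_inf_useries_le hinf 5)
      rw [h5, h5', Subgroup.comap_top, Subgroup.comap_top, top_inf_eq]
    · refine le_trans ?_ (comap_inf_useries_le hinf 4)
      rw [h4 h2, h4' h2, Subgroup.comap_top, Subgroup.comap_top, top_inf_eq]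
  push Not at huniq
  have hNp : IsPGroup p N := by
    obtain ⟨M, hMn, hMN, hM1, hM⟩ := exists_normal_le_of_isPSolvable hG N hN1
    rcases hmin M hMn hMN with h | h
    · exact absurd h hM1
    subst h
    exact hM.resolve_right fun hc => hN1 (le_bot_iff.1 (hA ▸ le_pPrimeCore hNn hc))
  obtain ⟨a, ha⟩ := hNp.exists_card_eq
  haveI : Group.IsSolvable N := by
    haveI := hNp.isNilpotent
    infer_instance
  haveI hNc : IsMulCommutative N := MinNormal.isMulCommutative N hmin
  by_cases hphi : ∀ M : Subgroup G, IsCoatom M → N ≤ M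
  · -- the quotient has trivial `p'`-core
    have hbot : pPrimeCore p (G ⧸ N) = ⊥ := by
      set T := (pPrimeCore p (G ⧸ N)).comap (QuotientGroup.mk' N) with hT
      haveI : T.Normal := inferInstance
      have hNT : N ≤ T := QuotientGroup.le_comap_mk' N _
      have hidx : N.relIndex T = Nat.card (pPrimeCore p (G ⧸ N)) := by
        rw [← card_map_mk_eq_relIndex, hT,
          Subgroup.map_comap_eq_self_of_surjective (QuotientGroup.mk'_surjective N)]
      have hcop : (Nat.card N).Coprime (N.relIndex T) := by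
        rw [hidx, ha]
        exact (Nat.Coprime.pow_left a (coprime_card_pPrimeCore p (G ⧸ N)).symm)
      obtain ⟨K, hK⟩ := Subgroup.exists_right_complement'_of_coprime (N := N.subgroupOf T) (by
        rwa [Nat.card_congr (Subgroup.subgroupOfEquivOfLe hNT).toEquiv, ← Subgroup.relIndex])
      set K' := K.map T.subtype with hK'
      have hK'c : Nat.card K' = N.relIndex T := by
        rw [hK', Subgroup.card_map_of_injective T.subtype_injective, Subgroup.relIndex,
          hK.symm.index_eq_card]
      have hsup : N ⊔ K' = T := by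
        conv_rhs => rw [← T.range_subtype, MonoidHom.range_eq_map, ← hK.sup_eq_top,
          Subgroup.map_sup, Subgroup.map_subgroupOf_eq_of_le hNT]
      have hnorm : Subgroup.normalizer (K' : Set G) = ⊤ := by
        by_contra hne
        obtain ⟨M, hM, hle⟩ := (eq_top_or_exists_le_coatom _).resolve_left hne
        refine hM.1 (top_le_iff.1 fun g _ => ?_)
        have hcj : Nat.card (OddLocal.conjBy g K') = Nat.card K' := OddLocal.card_conjBy g K'
        obtain ⟨x, hx, hxe⟩ := OddLocal.complement_conj_abelian (N := N)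
          (H := OddLocal.conjBy g K') (K := K') hNc (by rw [hcj, hK'c]; exact hcop)
          (by rw [hK'c]; exact hcop) (by
            have h1 : OddLocal.conjBy g N = N := OddLocal.conjBy_eq_iff_mem_normalizer.2
              (by rw [Subgroup.normalizer_eq_top N]; exact Subgroup.mem_top g)
            have h2 : OddLocal.conjBy g T = T := OddLocal.conjBy_eq_iff_mem_normalizer.2
              (by rw [Subgroup.normalizer_eq_top T]; exact Subgroup.mem_top g)
            conv_lhs => rw [← h1]
            rw [hsup, ← h2, ← hsup]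
            exact (Subgroup.map_sup N K' _).symm)
        have hm : x * g ∈ M := hle (OddLocal.conjBy_eq_iff_mem_normalizer.1
          (by rw [OddLocal.conjBy_mul]; exact hxe))
        have := M.mul_mem (M.inv_mem (hphi M hM hx)) hm
        rwa [inv_mul_cancel_left] at this
      haveI : K'.Normal := Subgroup.normalizer_eq_top_iff.1 hnorm
      have hK'1 : K' ≤ pPrimeCore p G := le_pPrimeCore inferInstance (by
        rw [hK'c, hidx]; exact coprime_card_pPrimeCore p _)
      rw [hA, le_bot_iff] at hK'1
      rw [← Subgroup.card_eq_one, ← hidx, ← hK'c, hK'1, Subgroup.card_bot]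
    obtain ⟨h5, h4⟩ := hlt N hN1
    have hu1 : useries p (G ⧸ N) 1 = ⊥ := by
      refine le_bot_iff.1 (hbot ▸ le_pPrimeCore (upperPSeries_normal p (G ⧸ N) 1) ?_)
      have h := useries_relIndex_even (p := p) (G := G ⧸ N) (n := 0) ⟨0, rfl⟩
      rwa [useries_zero, Subgroup.relIndex_bot_left] at h
    have step : ∀ i, (useries p (G ⧸ N) (i + 2)).comap (QuotientGroup.mk' N) ≤
        useries p G (i + 2) := by
      intro i
      induction i with
      | zero =>
        obtain ⟨b, hb⟩ := useries_relIndex_odd (p := p) (G := G ⧸ N) (n := 1) (by decide)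
        rw [hu1, Subgroup.relIndex_bot_left] at hb
        obtain ⟨j, -, hj⟩ := (Nat.dvd_prime_pow hp).1
          (show (useries p G 1).relIndex ((useries p (G ⧸ N) 2).comap (QuotientGroup.mk' N)) ∣
            p ^ (a + b) from by
          rw [pow_add, ← ha, ← hb, ← card_comap_mk]
          exact (Subgroup.subgroupOf _ _).index_dvd_card)
        exact le_useries_succ_odd (n := 1) (by decide)
          ((upperPSeries_normal p (G ⧸ N) 2).comap _) hj
      | succ i ihi =>
        have hX := (upperPSeries_normal p (G ⧸ N) (i + 3)).comap (QuotientGroup.mk' N)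
        have hd : (useries p G (i + 2)).relIndex
            ((useries p (G ⧸ N) (i + 3)).comap (QuotientGroup.mk' N)) ∣
            (useries p (G ⧸ N) (i + 2)).relIndex (useries p (G ⧸ N) (i + 3)) := by
          refine (Subgroup.relIndex_dvd_of_le_left _ ihi).trans ?_
          rw [relIndex_comap_mk]
        by_cases he : Even (i + 2)
        · exact le_useries_succ_even he hX
            (Nat.Coprime.coprime_dvd_left hd (useries_relIndex_even he))
        · obtain ⟨c, hc⟩ := useries_relIndex_odd (p := p) (G := G ⧸ N) he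
          rw [hc] at hd
          obtain ⟨j, -, hj⟩ := (Nat.dvd_prime_pow hp).1 hd
          exact le_useries_succ_odd he hX hj
    refine ⟨top_le_iff.1 ?_, fun h2 => top_le_iff.1 ?_⟩
    · refine le_trans ?_ (step 3)
      rw [h5, Subgroup.comap_top]
    · refine le_trans ?_ (step 2)
      rw [h4 h2, Subgroup.comap_top]
  push Not at hphi
  obtain ⟨M, hM, hNM⟩ := hphi
  have hsupM : N ⊔ M = ⊤ := hM.2 _ (lt_of_le_of_ne le_sup_right fun h => hNM (h ▸ le_sup_left))
  have hNcent : N ≤ Subgroup.centralizer (N : Set G) := fun x hx y hy =>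
    congrArg Subtype.val (hNc.is_comm.comm (⟨y, hy⟩ : N) ⟨x, hx⟩)
  have hinf : N ⊓ M = ⊥ := by
    have hn' : (N ⊓ M).Normal := by
      rw [← Subgroup.normalizer_eq_top_iff, eq_top_iff, ← hsupM]
      refine sup_le (fun x hx => Subgroup.centralizer_le_normalizer _
        ((Subgroup.centralizer_le (inf_le_left : N ⊓ M ≤ N)) (hNcent hx))) fun m hm => ?_
      rw [Subgroup.mem_normalizer_iff]
      intro y
      have h1 : y ∈ N ↔ m * y * m⁻¹ ∈ N :=
        Subgroup.mem_normalizer_iff.1 (by rw [Subgroup.normalizer_eq_top N]; exact mem_top m) y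
      rw [mem_inf, mem_inf, ← h1, Subgroup.mul_mem_cancel_right _ (inv_mem hm),
        Subgroup.mul_mem_cancel_left _ hm]
    rcases hmin _ hn' inf_le_left with h | h
    · exact h
    · exact absurd (h.ge.trans inf_le_right) hNM
  have hcompl : M.IsComplement' N := Subgroup.isComplement'_of_disjoint_and_mul_eq_univ
    (disjoint_iff.2 (by rwa [inf_comm] at hinf)) (by
      rw [← Subgroup.mul_normal, sup_comm, hsupM, Subgroup.coe_top])
  have hidxM : M.index = p ^ a := by rw [← ha, hcompl.symm.index_eq_card]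
  have hidxN : N.index = Nat.card M := hcompl.index_eq_card
  rcases hgood M hM with ⟨K, hKn, hKp, k, hk⟩ | hprime
  · set C := N ⊔ K.map M.subtype with hC
    haveI : C.Normal := by
      rw [← Subgroup.normalizer_eq_top_iff, eq_top_iff, ← hsupM]
      refine sup_le (le_sup_left.trans Subgroup.le_normalizer) fun m hm => ?_
      rw [Subgroup.mem_normalizer_iff_map_conj_eq, hC, Subgroup.map_sup]
      have h1 : N.map (↑(MulAut.conj m) : G →* G) = N := Subgroup.mem_normalizer_iff_map_conj_eq.1
        (by rw [Subgroup.normalizer_eq_top N]; exact mem_top m)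
      have h2 : (K.map M.subtype).map (↑(MulAut.conj m) : G →* G) = K.map M.subtype := by
        refine Subgroup.eq_of_le_of_card_ge ?_
          (Subgroup.card_map_of_injective (MulAut.conj m).injective).ge
        rintro _ ⟨_, ⟨y, hy, rfl⟩, rfl⟩
        exact ⟨_, hKn.conj_mem y hy ⟨m, hm⟩, rfl⟩
      rw [h1, h2]
    have hdvd : N.relIndex C ∣ Nat.card K := by
      rw [hC, sup_comm, Subgroup.relIndex_sup_right, ← Subgroup.card_map_of_injective
        M.subtype_injective]
      exact (Subgroup.subgroupOf _ _).index_dvd_card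
    have hidx : C.index = p ^ k := by
      have h1 : N.relIndex C = Nat.card K := by
        rw [hC, sup_comm, Subgroup.relIndex_sup_right, Subgroup.relIndex,
          show N.subgroupOf (K.map M.subtype) = ⊥ from ?_, Subgroup.index_bot,
          Subgroup.card_map_of_injective M.subtype_injective]
        rw [eq_bot_iff]
        rintro ⟨x, hx⟩ hxN
        rw [Subgroup.mem_bot]
        exact Subtype.ext (Subgroup.mem_bot.1
          (hinf ▸ ⟨hxN, Subgroup.map_subtype_le _ hx⟩ : x ∈ (⊥ : Subgroup G)))
      have h2 := Subgroup.relIndex_mul_index (le_sup_left : N ≤ C)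
      rw [h1, hidxN, ← Subgroup.card_mul_index K, hk] at h2
      exact Nat.eq_of_mul_eq_mul_left Nat.card_pos h2
    have h4 := eq_top_of_chain (p := p) (le_sup_left : N ≤ C) ⟨a, ha⟩
      (Nat.Coprime.coprime_dvd_left hdvd ((hp.coprime_iff_not_dvd.2 hKp).symm)) ⟨k, hidx⟩
    exact ⟨useries_five_eq_top_of_four h4, fun _ => h4⟩
  · -- `|N| = p`, so `M` acts faithfully on a group of order `p`
    rw [hidxM] at hprime
    have ha1 : a = 1 := Nat.Prime.eq_one_of_pow hprime
    subst ha1
    rw [pow_one] at ha
    have hfaith : M ⊓ Subgroup.centralizer (N : Set G) = ⊥ := by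
      by_contra hb
      have hn' : (M ⊓ Subgroup.centralizer (N : Set G)).Normal := by
        rw [← Subgroup.normalizer_eq_top_iff, eq_top_iff, ← hsupM]
        refine sup_le (fun x hx => Subgroup.centralizer_le_normalizer _
          (fun y hy => (hy.2 x hx).symm)) fun m hm => ?_
        rw [Subgroup.mem_normalizer_iff]
        intro y
        have hCn : (Subgroup.centralizer (N : Set G)).Normal := inferInstance
        have h1 : y ∈ Subgroup.centralizer (N : Set G) ↔
            m * y * m⁻¹ ∈ Subgroup.centralizer (N : Set G) :=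
          Subgroup.mem_normalizer_iff.1
            (by rw [Subgroup.normalizer_eq_top]; exact mem_top m) y
        rw [mem_inf, mem_inf, ← h1, Subgroup.mul_mem_cancel_right _ (inv_mem hm),
          Subgroup.mul_mem_cancel_left _ hm]
      exact huniq _ hn' hb (le_bot_iff.1 (hinf ▸ inf_le_inf_left N inf_le_left))
    let φ : M →* MulAut N := (MulAut.conjNormal (H := N)).comp M.subtype
    have hφ : Function.Injective φ := by
      refine (injective_iff_map_eq_one φ).2 fun m hm => ?_
      refine Subtype.ext (Subgroup.mem_bot.1 (hfaith ▸ ⟨m.2, fun y hy => ?_⟩ :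
        (m : G) ∈ (⊥ : Subgroup G)))
      have h := congrArg Subtype.val (congrArg (fun e : MulAut N => e ⟨y, hy⟩) hm)
      replace h : (m : G) * y * (m : G)⁻¹ = y := h
      exact (mul_inv_eq_iff_eq_mul.1 h).symm
    haveI : IsCyclic N := isCyclic_of_prime_card (p := p) ha
    have hcard : Nat.card M ∣ p - 1 := by
      have h := Subgroup.card_dvd_of_injective φ hφ
      rwa [IsCyclic.card_mulAut N, ha, Nat.totient_prime hp] at h
    have hcop : (Nat.card M).Coprime p := by
      refine (hp.coprime_iff_not_dvd.2 fun hd => ?_).symm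
      have := Nat.le_of_dvd (by have := hp.two_le; omega) (hd.trans hcard)
      have := hp.two_le
      omega
    have h4 := eq_top_of_chain (p := p) (le_top : N ≤ ⊤) ⟨1, by rw [pow_one]; exact ha⟩
      (by rwa [Subgroup.relIndex_top_right, hidxN]) ⟨0, by rw [Subgroup.index_top, pow_zero]⟩
    exact ⟨useries_five_eq_top_of_four h4, fun _ => h4⟩

theorem useries_eq_top (hG : IsPSolvable p G) (hmax : Good p G) :
    useries p G 5 = ⊤ ∧ (p = 2 → useries p G 4 = ⊤) :=
  useries_eq_top_aux _ rfl hG hmax

end Cfsg.Agent.PSolv.MaxIndex
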